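import Cfsg.Agent.Lib.ToddCox.Fi23C0.P0
import Cfsg.Agent.Lib.ToddCox.Fi23C0.P1
set_option autoImplicit false
set_option maxRecDepth 100000
namespace Cfsg.Agent.Lib.ToddCox.Fi23C0
theorem covered : Covered Eo inv W isH 42439 211665 := (Covered.trans (Covered.trans (Covered.trans (Covered.trans (Covered.trans (Covered.trans c0 c1) (Covered.trans c2 (Covered.trans c3 c4))) (Covered.trans (Covered.trans c5 c6) (Covered.trans c7 (Covered.trans c8 c9)))) (Covered.trans (Covered.trans (Covered.trans c10 c11) (Covered.trans c12 (Covered.trans c13 c14))) (Covered.trans (Covered.trans c15 (Covered.trans c16 c17)) (Covered.trans c18 (Covered.trans c19 c20))))) (Covered.trans (Covered.trans (Covered.trans (Covered.trans c21 c22) (Covered.trans c23 (Covered.trans c24 c25))) (Covered.trans (Covered.trans c26 c27) (Covered.trans c28 (Covered.trans c29 c30)))) (Covered.trans (Covered.trans (Covered.trans c31 c32) (Covered.trans c33 (Covered.trans c34 c35))) (Covered.trans (Covered.trans c36 (Covered.trans c37 c38)) (Covered.trans c39 (Covered.trans c40 c41)))))) (Covered.trans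 (Covered.trans (Covered.trans (Covered.trans (Covered.trans c42 c43) (Covered.trans c44 (Covered.trans c45 c46))) (Covered.trans (Covered.trans c47 c48) (Covered.trans c49 (Covered.trans c50 c51)))) (Covered.trans (Covered.trans (Covered.trans c52 c53) (Covered.trans c54 (Covered.trans c55 c56))) (Covered.trans (Covered.trans c57 (Covered.trans c58 c59)) (Covered.trans c60 (Covered.trans c61 c62))))) (Covered.trans (Covered.trans (Covered.trans (Covered.trans c63 c64) (Covered.trans c65 (Covered.trans c66 c67))) (Covered.trans (Covered.trans c68 c69) (Covered.trans c70 (Covered.trans c71 c72)))) (Covered.trans (Covered.trans (Covered.trans c73 c74) (Covered.trans c75 (Covered.trans c76 c77))) (Covered.trans (Covered.trans c78 (Covered.trans c79 c80)) (Covered.trans c81 (Covered.trans c82 c83)))))))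
theorem links : LinksOK Eo cF (2 * nEv) N ys 0 31671 := (LinksOK.trans (LinksOK.trans (LinksOK.trans (LinksOK.trans (LinksOK.trans k0 k1) (LinksOK.trans k2 k3)) (LinksOK.trans (LinksOK.trans k4 k5) (LinksOK.trans k6 k7))) (LinksOK.trans (LinksOK.trans (LinksOK.trans k8 k9) (LinksOK.trans k10 k11)) (LinksOK.trans (LinksOK.trans k12 k13) (LinksOK.trans k14 k15)))) (LinksOK.trans (LinksOK.trans (LinksOK.trans (LinksOK.trans k16 k17) (LinksOK.trans k18 k19)) (LinksOK.trans (LinksOK.trans k20 k21) (LinksOK.trans k22 k23))) (LinksOK.trans (LinksOK.trans (LinksOK.trans k24 k25) (LinksOK.trans k26 k27)) (LinksOK.trans (LinksOK.trans k28 k29) (LinksOK.trans k30 k31)))))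
theorem defs : ∀ c, c < nDef → chkDef Eo inv c = true := defs_of_bits 42439 13 6 (by norm_num) (by
  intro j hj
  interval_cases j
  · exact d0
  · exact d1
  · exact d2
  · exact d3
  · exact d4
  · exact d5
  )
theorem words : ∀ j, j < nW → wordsOK W (relR Rb inv) inv sp j = true := allBelow_spec (by norm_num [nW]) wordsGood
end Cfsg.Agent.Lib.ToddCox.Fi23C0
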